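import Mathlib

/-! A system of sixty vectors in five dimensions, given by its Gram matrix: it determines six
sets of twenty. -/

set_option autoImplicit false
set_option linter.unusedSectionVars false
set_option linter.style.haveILetI false

open Finset

namespace CfsgLib.HSGraph

/-- A Gram matrix with the three values 4, 1, -2 that is 48 times an idempotent. -/
structure Frame (Y : Type*) [Fintype Y] where
  W : Y → Y → ℤ
  symm : ∀ a b, W a b = W b a
  diag : ∀ a, W a a = 4
  vals : ∀ a b, W a b = 4 ∨ W a b = 1 ∨ W a b = -2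
  sum : ∀ a, ∑ u, W a u = 0
  prod : ∀ a b, ∑ u, W a u * W b u = 48 * W a b
  four : ∀ a, (univ.filter fun u => W a u = 4).card = 4
  card : Fintype.card Y = 60

variable {Y : Type*} [Fintype Y] [DecidableEq Y] (F : Frame Y)

namespace Frame

theorem eq_of_four {a b : Y} (h : F.W a b = 4) : F.W a = F.W b := by
  have hz : ∑ u, (F.W a u - F.W b u) ^ 2 = 0 := by
    simp only [sq, sub_mul, mul_sub, sum_sub_distrib, F.prod, F.diag, F.symm b a, h]
    norm_num
  funext u
  have := (sum_eq_zero_iff_of_nonneg fun u _ => sq_nonneg _).1 hz u (mem_univ u)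
  rwa [sq_eq_zero_iff, sub_eq_zero] at this

theorem triangle {a b c : Y} (h1 : F.W a b = -2) (h2 : F.W a c = -2) (h3 : F.W b c = -2) (u : Y) :
    F.W a u + F.W b u + F.W c u = 0 := by
  have hz : ∑ u, (F.W a u + F.W b u + F.W c u) ^ 2 = 0 := by
    simp only [sq, add_mul, mul_add, sum_add_distrib, F.prod, F.diag, F.symm b a, F.symm c a,
      F.symm c b, h1, h2, h3]
    norm_num
  exact sq_eq_zero_iff.1 ((sum_eq_zero_iff_of_nonneg fun u _ => sq_nonneg _).1 hz u (mem_univ u))

/-- The vertices at given values from two. -/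
def cell (a b : Y) (i j : ℤ) : Finset Y := univ.filter fun u => F.W a u = i ∧ F.W b u = j

theorem mem_cell {a b u : Y} {i j : ℤ} : u ∈ F.cell a b i j ↔ F.W a u = i ∧ F.W b u = j := by
  simp [cell]

theorem sum_cell (a b : Y) (g : ℤ → ℤ → ℤ) : ∑ u, g (F.W a u) (F.W b u) =
    (F.cell a b 4 4).card * g 4 4 + (F.cell a b 4 1).card * g 4 1 +
    (F.cell a b 4 (-2)).card * g 4 (-2) + (F.cell a b 1 4).card * g 1 4 +
    (F.cell a b 1 1).card * g 1 1 + (F.cell a b 1 (-2)).card * g 1 (-2) +
    (F.cell a b (-2) 4).card * g (-2) 4 + (F.cell a b (-2) 1).card * g (-2) 1 +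
    (F.cell a b (-2) (-2)).card * g (-2) (-2) := by
  have key : ∀ i j : ℤ, ((F.cell a b i j).card : ℤ) * g i j =
      ∑ u, if F.W a u = i ∧ F.W b u = j then g i j else 0 := fun i j => by
    rw [← sum_filter, sum_const, nsmul_eq_mul]; rfl
  rw [key, key, key, key, key, key, key, key, key]
  simp only [← sum_add_distrib]
  refine sum_congr rfl fun u _ => ?_
  rcases F.vals a u with h | h | h <;> rcases F.vals b u with h' | h' | h' <;> simp [h, h']

theorem cell_left {a b : Y} (j : ℤ) :
    (F.cell a b 4 j).card = if j = F.W b a then 4 else 0 := by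
  split_ifs with h
  · rw [← F.four a]
    congr 1
    ext u
    simp only [mem_cell, mem_filter, mem_univ, true_and, and_iff_left_iff_imp]
    intro hu
    rw [F.symm b u, ← F.eq_of_four hu, F.symm a b, h]
  · rw [card_eq_zero, cell, filter_eq_empty_iff]
    rintro u - ⟨hu, hu'⟩
    exact h (by rw [← hu', F.symm b u, ← F.eq_of_four hu, F.symm a b])

theorem cell_swap (a b : Y) (i j : ℤ) : F.cell a b i j = F.cell b a j i := by
  ext u; simp [mem_cell, and_comm]

theorem cell_counts (a b : Y) (p : ℤ) (hp : F.W a b = p) :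
    (p = 1 → (F.cell a b (-2) (-2)).card = 12 ∧ (F.cell a b 1 1).card = 16 ∧
      (F.cell a b (-2) 1).card = 12) ∧
    (p = -2 → (F.cell a b (-2) (-2)).card = 4) := by
  have hl : ∀ j, (F.cell a b 4 j).card = if j = p then 4 else 0 := fun j => by
    rw [F.cell_left, F.symm b a, hp]
  have hr : ∀ i, (F.cell a b i 4).card = if i = p then 4 else 0 := fun i => by
    rw [F.cell_swap, F.cell_left, hp]
  have e0 := F.sum_cell a b fun _ _ => 1
  have e1 := F.sum_cell a b fun i _ => i
  have e2 := F.sum_cell a b fun _ j => j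
  have e3 := F.sum_cell a b fun i _ => i * i
  have e4 := F.sum_cell a b fun i j => i * j
  simp only [F.sum, F.prod, F.diag, hp, sum_const, card_univ, F.card, nsmul_eq_mul, hl, hr] at e0 e1 e2 e3 e4
  constructor <;> rintro rfl <;> norm_num at e0 e1 e2 e3 e4 ⊢ <;> omega

variable {a b : Y}

theorem core_values (hab : F.W a b = 1) {c c' : Y} (hc : c ∈ F.cell a b (-2) (-2))
    (hc' : c' ∈ F.cell a b (-2) (-2)) : F.W c c' = 4 ∨ F.W c c' = 1 := by
  rw [mem_cell] at hc hc'
  rcases F.vals c c' with h | h | h
  · exact Or.inl h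
  · exact Or.inr h
  · exfalso
    have := F.triangle hc.1 hc'.1 h b
    rw [hab, F.symm c b, F.symm c' b, hc.2, hc'.2] at this
    norm_num at this

theorem core_row (hab : F.W a b = 1) {c : Y} (hc : c ∈ F.cell a b (-2) (-2)) :
    ∑ c' ∈ F.cell a b (-2) (-2), F.W c c' = 24 := by
  have h1 : ∀ c' ∈ F.cell a b (-2) (-2), F.W c c' = 1 + if F.W c c' = 4 then 3 else 0 := by
    intro c' hc'
    rcases F.core_values hab hc hc' with h | h <;> simp [h]
  have h2 : ((F.cell a b (-2) (-2)).filter fun c' => F.W c c' = 4).card = 4 := by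
    rw [← F.four c]
    congr 1
    ext u
    simp only [mem_filter, mem_univ, true_and, and_iff_right_iff_imp, mem_cell]
    intro hu
    rw [mem_cell] at hc
    rw [F.symm a u, F.symm b u, ← F.eq_of_four hu, F.symm c a, F.symm c b]
    exact hc
  rw [sum_congr rfl h1, sum_add_distrib, ← sum_filter, sum_const, sum_const, h2,
    ((F.cell_counts a b _ hab).1 rfl).1]
  norm_num

theorem line_count (hab : F.W a b = 1) {u : Y} (hu : u ∈ F.cell a b (-2) 1) :
    ∑ c ∈ F.cell a b (-2) (-2), F.W u c = 0 := by
  have hle : ∀ v ∈ F.cell a b (-2) 1,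
      ((F.cell a b (-2) (-2)).filter fun c => F.W v c = -2).card ≤ 4 := by
    intro v hv
    rw [mem_cell] at hv
    by_cases h : ((F.cell a b (-2) (-2)).filter fun c => F.W v c = -2).Nonempty
    · obtain ⟨c, hc⟩ := h
      rw [mem_filter, mem_cell] at hc
      rw [← F.four c]
      refine card_le_card fun c' hc' => ?_
      rw [mem_filter, mem_cell] at hc'
      rw [mem_filter, F.symm c c']
      refine ⟨mem_univ _, ?_⟩
      have h1 := F.triangle hv.1 hc.1.1 hc.2 c
      have h2 := F.triangle hv.1 hc'.1.1 hc'.2 c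
      have := F.diag c
      linarith
    · rw [not_nonempty_iff_eq_empty] at h
      simp [h]
  have htot : ∑ v ∈ F.cell a b (-2) 1, ((F.cell a b (-2) (-2)).filter fun c => F.W v c = -2).card =
      ∑ v ∈ F.cell a b (-2) 1, 4 := by
    have h : ∀ c ∈ F.cell a b (-2) (-2),
        ((F.cell a b (-2) 1).filter fun v => F.W v c = -2).card = 4 := by
      intro c hc
      rw [mem_cell] at hc
      rw [← (F.cell_counts a c _ hc.1).2 rfl]
      congr 1
      ext v
      simp only [mem_filter, mem_cell]
      constructor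
      · rintro ⟨⟨h1, -⟩, h3⟩; exact ⟨h1, F.symm c v ▸ h3⟩
      · rintro ⟨h1, h3⟩
        refine ⟨⟨h1, ?_⟩, F.symm v c ▸ h3⟩
        have := F.triangle h1 hc.1 (F.symm v c ▸ h3) b
        rw [hab, F.symm v b, F.symm c b, hc.2] at this
        linarith
    simp only [card_filter]
    rw [sum_comm]
    simp only [← card_filter]
    rw [sum_congr rfl h, sum_const, sum_const, ((F.cell_counts a b _ hab).1 rfl).1,
      ((F.cell_counts a b _ hab).1 rfl).2.2]
  have hj := (sum_eq_sum_iff_of_le hle).1 htot u hu
  have h1 : ∀ c ∈ F.cell a b (-2) (-2), F.W u c = 1 - if F.W u c = -2 then 3 else 0 := by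
    intro c hc
    rw [mem_cell] at hu hc
    rcases F.vals u c with h | h | h
    · exfalso
      have := congrFun (F.eq_of_four h) b
      rw [F.symm u b, F.symm c b, hu.2, hc.2] at this
      norm_num at this
    · simp [h]
    · simp [h]
  rw [sum_congr rfl h1, sum_sub_distrib, ← sum_filter, sum_const, sum_const, hj,
    ((F.cell_counts a b _ hab).1 rfl).1]
  norm_num

/-- The vector carrying the third point of a triangle. -/
def third (a b u : Y) : ℤ := -(∑ c ∈ F.cell a b (-2) (-2), F.W c u) - 4 * F.W a u - 4 * F.W b u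

theorem third_symm (a b : Y) : F.third a b = F.third b a := by
  funext u; rw [third, third, F.cell_swap]; ring

theorem sum_third_mul (a b v : Y) : ∑ u, F.third a b u * F.W v u = 48 * F.third a b v := by
  simp only [third, sub_mul, neg_mul, sum_mul, mul_assoc, sum_sub_distrib, sum_neg_distrib, ← mul_sum, F.prod]
  rw [sum_comm]
  simp only [F.prod, ← mul_sum]
  ring

theorem third_core (hab : F.W a b = 1) {c : Y} (hc : c ∈ F.cell a b (-2) (-2)) :
    F.third a b c = -8 := by
  have h := F.core_row hab hc
  rw [mem_cell] at hc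
  rw [third, sum_congr rfl fun c' _ => F.symm c' c, h, hc.1, hc.2]
  norm_num

theorem third_left (hab : F.W a b = 1) {u : Y} (hu : F.W a u = 4) : F.third a b u = 4 := by
  rw [third, sum_congr rfl (g := fun _ => (-2 : ℤ)) fun c hc => by
    rw [F.symm c u, ← F.eq_of_four hu]; exact ((F.mem_cell).1 hc).1,
    sum_const, ((F.cell_counts a b _ hab).1 rfl).1, hu, F.symm b u, ← F.eq_of_four hu, hab]
  norm_num

theorem third_side (hab : F.W a b = 1) {u : Y} (hu : u ∈ F.cell a b (-2) 1) :
    F.third a b u = 4 := by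
  have h := F.line_count hab hu
  rw [mem_cell] at hu
  rw [third, sum_congr rfl fun c _ => F.symm c u, h, hu.1, hu.2]
  norm_num

theorem sum_third_sq (hab : F.W a b = 1) : ∑ u, F.third a b u * F.third a b u = 3072 := by
  have hba : F.W b a = 1 := F.symm a b ▸ hab
  have key : ∑ u, F.third a b u * F.third a b u =
      -(∑ c ∈ F.cell a b (-2) (-2), ∑ u, F.third a b u * F.W c u) -
        4 * (∑ u, F.third a b u * F.W a u) - 4 * (∑ u, F.third a b u * F.W b u) := by
    rw [sum_comm, mul_sum, mul_sum, ← sum_neg_distrib, ← sum_sub_distrib, ← sum_sub_distrib]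
    refine sum_congr rfl fun u _ => ?_
    conv_lhs => arg 2; rw [third]
    rw [← mul_sum]
    ring
  rw [key, sum_congr rfl fun c hc => by rw [F.sum_third_mul, F.third_core hab hc],
    F.sum_third_mul, F.sum_third_mul, F.third_left hab (F.diag a),
    show F.third a b b = 4 by rw [F.third_symm]; exact F.third_left hba (F.diag b),
    sum_const, ((F.cell_counts a b _ hab).1 rfl).1]
  norm_num

theorem sum_third (a b : Y) : ∑ u, F.third a b u = 0 := by
  simp only [third, sum_sub_distrib, sum_neg_distrib, ← mul_sum, F.sum]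
  rw [sum_comm]
  simp [F.sum]

/-- Value of the third vector: either it is the vector of the vertex or it is -8. -/
theorem third_middle (hab : F.W a b = 1) :
    ((F.cell a b 1 1).filter fun u => F.third a b u = 16).card = 4 ∧
      ∀ u ∈ F.cell a b 1 1, F.third a b u = 16 ∨ F.third a b u = -8 := by
  have hba : F.W b a = 1 := F.symm a b ▸ hab
  obtain ⟨hk, hmid, hside⟩ := (F.cell_counts a b _ hab).1 rfl
  have hside' := ((F.cell_counts b a _ hba).1 rfl).2.2
  rw [F.cell_swap b a] at hside'
  have hval : ∀ u ∈ F.cell a b 1 1,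
      F.third a b u = -8 ∨ F.third a b u = 16 ∨ F.third a b u = 4 := by
    intro u hu
    have hb1 : 0 ≤ ∑ v, (F.third a b v + 4 * F.W u v) ^ 2 := sum_nonneg fun v _ => sq_nonneg _
    have hb2 : 0 ≤ ∑ v, (F.third a b v - 4 * F.W u v) ^ 2 := sum_nonneg fun v _ => sq_nonneg _
    simp only [sq, add_mul, mul_add, sub_mul, mul_sub, sum_add_distrib, sum_sub_distrib] at hb1 hb2
    have e1 : ∑ v, F.third a b v * (4 * F.W u v) = 4 * (48 * F.third a b u) := by
      rw [← F.sum_third_mul, mul_sum]; exact sum_congr rfl fun v _ => by ring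
    have e2 : ∑ v, 4 * F.W u v * F.third a b v = 4 * (48 * F.third a b u) := by
      rw [← e1]; exact sum_congr rfl fun v _ => by ring
    have e3 : ∑ v, 4 * F.W u v * (4 * F.W u v) = 16 * (48 * 4) := by
      simp only [mul_mul_mul_comm, ← mul_sum, F.prod, F.diag]
      norm_num
    rw [F.sum_third_sq hab, e1, e2, e3] at hb1 hb2
    obtain ⟨hua, hub⟩ := F.mem_cell.1 hu
    have h1 : ∀ c ∈ F.cell a b (-2) (-2), F.W c u = 1 - if F.W c u = -2 then 3 else 0 := by
      intro c hc
      rcases F.vals c u with h | h | h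
      · exfalso
        have := congrFun (F.eq_of_four h) a
        rw [F.symm c a, F.symm u a, (F.mem_cell.1 hc).1, hua] at this
        norm_num at this
      · simp [h]
      · simp [h]
    have h2 : 4 ∣ ((F.cell a b (-2) (-2)).filter fun c => F.W c u = -2).card := by
      set S := (F.cell a b (-2) (-2)).filter fun c => F.W c u = -2 with hS
      classical
      rw [card_eq_sum_card_image (fun c => F.W c) S]
      refine dvd_sum fun f hf => ?_
      obtain ⟨c, hc, rfl⟩ := mem_image.1 hf
      refine dvd_of_eq ?_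
      rw [← F.four c]
      congr 1
      ext c'
      simp only [hS, mem_filter, mem_cell] at hc
      simp only [hS, mem_filter, mem_univ, true_and, mem_cell]
      constructor
      · intro h
        have e := (F.eq_of_four h).symm
        refine ⟨⟨⟨?_, ?_⟩, ?_⟩, e⟩
        · rw [F.symm a c', e, F.symm c a]; exact hc.1.1
        · rw [F.symm b c', e, F.symm c b]; exact hc.1.2
        · rw [e]; exact hc.2
      · rintro ⟨-, h⟩
        rw [F.symm, congrFun h c, F.diag]
    rw [third, sum_congr rfl h1, sum_sub_distrib, ← sum_filter, sum_const, sum_const, hk, hua, hub]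
      at hb1 hb2 ⊢
    obtain ⟨k, hk'⟩ := h2
    rw [hk'] at hb1 hb2 ⊢
    norm_num at hb1 hb2 ⊢
    omega
  have hsplit : ∀ g : ℤ → ℤ, ∑ u, g (F.third a b u) =
      ∑ u ∈ F.cell a b 1 1, g (F.third a b u) + 32 * g 4 + 12 * g (-8) := by
    intro g
    have hu : ∀ u, g (F.third a b u) = (if u ∈ F.cell a b 1 1 then g (F.third a b u) else 0) +
        (if F.W a u = 4 then g 4 else 0) + (if F.W b u = 4 then g 4 else 0) +
        (if u ∈ F.cell a b (-2) 1 then g 4 else 0) + (if u ∈ F.cell a b 1 (-2) then g 4 else 0) +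
        (if u ∈ F.cell a b (-2) (-2) then g (-8) else 0) := by
      intro u
      rcases F.vals a u with h | h | h <;> rcases F.vals b u with h' | h' | h' <;>
        simp only [mem_cell, h, h'] <;> norm_num
      · exfalso
        have := congrFun (F.eq_of_four h) b
        rw [F.symm u b, h', hab] at this; norm_num at this
      · rw [F.third_left hab h]
      · exfalso
        have := congrFun (F.eq_of_four h) b
        rw [F.symm u b, h', hab] at this; norm_num at this
      · rw [F.third_symm, F.third_left hba h']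
      · rw [F.third_symm, F.third_side hba (F.mem_cell.2 ⟨h', h⟩)]
      · exfalso
        have := congrFun (F.eq_of_four h') a
        rw [F.symm u a, h, hba] at this; norm_num at this
      · rw [F.third_side hab (F.mem_cell.2 ⟨h, h'⟩)]
      · rw [F.third_core hab (F.mem_cell.2 ⟨h, h'⟩)]
    rw [sum_congr rfl fun u _ => hu u]
    simp only [sum_add_distrib, sum_ite_mem, univ_inter, ← sum_filter, sum_const, F.four, hside,
      hside', hk, nsmul_eq_mul]
    ring
  have e1 := (hsplit id).symm.trans (F.sum_third a b)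
  have e2 := (hsplit fun t => t * t).symm.trans (F.sum_third_sq hab)
  have hsum : ∀ g : ℤ → ℤ, ∑ u ∈ F.cell a b 1 1, g (F.third a b u) =
      ((F.cell a b 1 1).filter fun u => F.third a b u = 16).card * g 16 +
      ((F.cell a b 1 1).filter fun u => F.third a b u = -8).card * g (-8) +
      ((F.cell a b 1 1).filter fun u => F.third a b u = 4).card * g 4 := by
    intro g
    simp only [card_filter, Nat.cast_sum, sum_mul, ← sum_add_distrib]
    refine sum_congr rfl fun u hu => ?_
    rcases hval u hu with h | h | h <;> simp [h]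
  have e0 := hsum fun _ => 1
  simp only [id_eq] at e1
  rw [hsum fun t => t] at e1
  rw [hsum fun t => t * t] at e2
  simp only [sum_const, hmid, nsmul_eq_mul] at e0
  norm_num at e0 e1 e2
  refine ⟨by omega, fun u hu => ?_⟩
  rcases hval u hu with h | h | h
  · exact Or.inr h
  · exact Or.inl h
  · exfalso
    have : 0 < ((F.cell a b 1 1).filter fun u => F.third a b u = 4).card :=
      card_pos.2 ⟨u, mem_filter.2 ⟨hu, h⟩⟩
    omega

theorem third_eq (hab : F.W a b = 1) {m : Y} (hm : F.third a b m = 16) (u : Y) :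
    F.third a b u = 4 * F.W m u := by
  have hz : ∑ v, (F.third a b v - 4 * F.W m v) ^ 2 = 0 := by
    simp only [sub_sq, mul_pow, sum_add_distrib, sum_sub_distrib, ← mul_sum]
    rw [show ∑ v, 2 * F.third a b v * (4 * F.W m v) = 8 * (48 * F.third a b m) by
        rw [← F.sum_third_mul, mul_sum]; exact sum_congr rfl fun v _ => by ring,
      show ∑ v, F.third a b v ^ 2 = 3072 by simp only [sq]; exact F.sum_third_sq hab,
      show ∑ v, F.W m v ^ 2 = 48 * 4 by simp only [sq, F.prod, F.diag], hm]
    norm_num
  have := sq_eq_zero_iff.1 ((sum_eq_zero_iff_of_nonneg fun v _ => sq_nonneg _).1 hz u (mem_univ u))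
  linarith

/-- A set of twenty with no value -2. -/
def IsPentad (K : Finset Y) : Prop :=
  K.card = 20 ∧ ∀ u ∈ K, ∀ v ∈ K, F.W u v ≠ -2

theorem exists_unique_pentad (hab : F.W a b = 1) :
    ∃! K : Finset Y, F.IsPentad K ∧ a ∈ K ∧ b ∈ K := by
  have hba : F.W b a = 1 := F.symm a b ▸ hab
  obtain ⟨hfour, hval⟩ := F.third_middle hab
  obtain ⟨m, hm⟩ := card_pos.1 (by rw [hfour]; norm_num :
    0 < ((F.cell a b 1 1).filter fun u => F.third a b u = 16).card)
  rw [mem_filter] at hm
  have hmv : ∀ v ∈ F.cell a b 1 1, F.third a b v = -8 → F.W m v = -2 := fun v _ h => by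
    have := F.third_eq hab hm.2 v
    omega
  let K : Finset Y := univ.filter fun u => F.W a u = 4 ∨ F.W b u = 4 ∨
    (u ∈ F.cell a b 1 1 ∧ F.third a b u = -8)
  have hcls : ∀ u v, F.W a u = 4 → (F.W a v = 4 ∨ F.W b v = 4 ∨
      (v ∈ F.cell a b 1 1 ∧ F.third a b v = -8)) → F.W u v ≠ -2 := by
    intro u v hu hv
    rw [← F.eq_of_four hu]
    rcases hv with h | h | ⟨h, -⟩
    · omega
    · rw [F.symm, ← F.eq_of_four h, hba]; norm_num
    · rw [(F.mem_cell.1 h).1]; norm_num
  have hclsb : ∀ u v, F.W b u = 4 → (F.W a v = 4 ∨ F.W b v = 4 ∨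
      (v ∈ F.cell a b 1 1 ∧ F.third a b v = -8)) → F.W u v ≠ -2 := by
    intro u v hu hv
    rw [← F.eq_of_four hu]
    rcases hv with h | h | ⟨h, -⟩
    · rw [F.symm, ← F.eq_of_four h, hab]; norm_num
    · omega
    · rw [(F.mem_cell.1 h).2]; norm_num
  have hcard : K.card = 20 := by
    have h12 : (univ.filter fun u => F.W a u = 4 ∨ F.W b u = 4).card = 8 := by
      rw [filter_or, card_union_of_disjoint, F.four, F.four]
      rw [disjoint_left]
      intro u h1 h2
      have h3 := congrFun (F.eq_of_four (mem_filter.1 h1).2) b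
      rw [F.symm u b, (mem_filter.1 h2).2, hab] at h3
      norm_num at h3
    have h3 : ((F.cell a b 1 1).filter fun u => F.third a b u = -8).card = 12 := by
      have h := card_filter_add_card_filter_not (s := F.cell a b 1 1) (fun u => F.third a b u = 16)
      rw [hfour, ((F.cell_counts a b _ hab).1 rfl).2.1] at h
      rw [show ((F.cell a b 1 1).filter fun u => F.third a b u = -8) =
        ((F.cell a b 1 1).filter fun u => ¬ F.third a b u = 16) from filter_congr fun u hu => by
          rcases hval u hu with e | e <;> simp [e]]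
      omega
    have hK : K = (univ.filter fun u => F.W a u = 4 ∨ F.W b u = 4) ∪
        ((F.cell a b 1 1).filter fun u => F.third a b u = -8) := by
      ext u; simp [K, or_assoc]
    rw [hK, card_union_of_disjoint, h12, h3]
    rw [disjoint_left]
    intro u h1 h2
    rw [mem_filter, mem_cell] at h2
    rcases (mem_filter.1 h1).2 with h | h <;> omega
  have hpair : F.IsPentad K := by
    refine ⟨hcard, fun u hu v hv => ?_⟩
    rw [mem_filter] at hu hv
    rcases hu.2 with h | h | ⟨h, h8⟩
    · exact hcls u v h hv.2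
    · exact hclsb u v h hv.2
    · rcases hv.2 with h' | h' | ⟨h', h8'⟩
      · rw [F.symm]; exact hcls v u h' hu.2
      · rw [F.symm]; exact hclsb v u h' hu.2
      · intro huv
        have hsum := F.triangle (hmv u h h8) (hmv v h' h8') huv a
        rw [F.symm m a, F.symm u a, F.symm v a, (F.mem_cell.1 hm.1).1, (F.mem_cell.1 h).1,
          (F.mem_cell.1 h').1] at hsum
        norm_num at hsum
  refine ⟨K, ⟨hpair, by simp [K, F.diag], by simp [K, F.diag]⟩, ?_⟩
  rintro L ⟨⟨hLc, hL⟩, haL, hbL⟩
  have hsub : ∀ u ∈ L, u ∈ K ∨ (u ∈ F.cell a b 1 1 ∧ F.third a b u = 16) := by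
    intro u hu
    simp only [K, mem_filter, mem_univ, true_and]
    rcases F.vals a u with h | h | h
    · exact Or.inl (Or.inl h)
    · rcases F.vals b u with h' | h' | h'
      · exact Or.inl (Or.inr (Or.inl h'))
      · rcases hval u (F.mem_cell.2 ⟨h, h'⟩) with e | e
        · exact Or.inr ⟨F.mem_cell.2 ⟨h, h'⟩, e⟩
        · exact Or.inl (Or.inr (Or.inr ⟨F.mem_cell.2 ⟨h, h'⟩, e⟩))
      · exact absurd h' (hL b hbL u hu)
    · exact absurd h (hL a haL u hu)
  have hno : ∀ u ∈ L, u ∈ K := by
    by_contra hno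
    push Not at hno
    obtain ⟨u, hu, huK⟩ := hno
    obtain ⟨hu1, hu16⟩ := (hsub u hu).resolve_left huK
    have : L ⊆ (univ.filter fun v => F.W a v = 4 ∨ F.W b v = 4) ∪
        ((F.cell a b 1 1).filter fun v => F.third a b v = 16) := by
      intro v hv
      rw [mem_union, mem_filter, mem_filter]
      rcases hsub v hv with h | h
      · simp only [K, mem_filter] at h
        rcases h.2 with h' | h' | ⟨h', h8⟩
        · exact Or.inl ⟨mem_univ _, Or.inl h'⟩
        · exact Or.inl ⟨mem_univ _, Or.inr h'⟩
        · exfalso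
          have h1 := F.third_eq hab hu16 v
          have h2 := hL u hu v hv
          omega
      · exact Or.inr h
    have h := (card_le_card this).trans (card_union_le _ _)
    rw [hfour, filter_or, hLc] at h
    have h' := card_union_le (univ.filter fun v => F.W a v = 4) (univ.filter fun v => F.W b v = 4)
    rw [F.four, F.four] at h'
    omega
  exact eq_of_subset_of_card_le hno (by rw [hLc, hcard])

theorem card_deg (a : Y) : (univ.filter fun u => F.W a u = 1).card = 32 := by
  have e0 := F.sum_cell a a fun _ _ => 1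
  have e1 := F.sum_cell a a fun i _ => i
  have hoff : ∀ i j : ℤ, i ≠ j → (F.cell a a i j).card = 0 := fun i j h => by
    rw [card_eq_zero, cell, filter_eq_empty_iff]
    rintro u - ⟨h1, h2⟩
    exact h (h1 ▸ h2)
  have h4 : (F.cell a a 4 4).card = 4 := by rw [F.cell_left, F.diag, if_pos rfl]
  have h1 : (F.cell a a 1 1).card = (univ.filter fun u => F.W a u = 1).card := by
    congr 1; ext u; simp [mem_cell]
  simp only [F.sum, sum_const, card_univ, F.card, nsmul_eq_mul, h4,
    hoff 4 1 (by norm_num), hoff 4 (-2) (by norm_num), hoff 1 4 (by norm_num),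
    hoff 1 (-2) (by norm_num), hoff (-2) 4 (by norm_num), hoff (-2) 1 (by norm_num), h1] at e0 e1
  norm_num at e0 e1
  omega

open Classical in
theorem card_pentads (a : Y) :
    ((univ : Finset (Finset Y)).filter fun K => F.IsPentad K ∧ a ∈ K).card = 2 := by
  set T := (univ : Finset (Finset Y)).filter fun K => F.IsPentad K ∧ a ∈ K with hT
  have h1 : ∀ K ∈ T, ((univ.filter fun u => F.W a u = 1).filter fun u => u ∈ K).card = 16 := by
    intro K hK
    rw [hT, mem_filter] at hK
    obtain ⟨-, ⟨hKc, hK'⟩, haK⟩ := hK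
    have hne : ∃ b ∈ K, F.W a b = 1 := by
      by_contra hno
      push Not at hno
      have hsub : K ⊆ univ.filter fun u => F.W a u = 4 := fun u hu =>
        mem_filter.2 ⟨mem_univ _, ((F.vals a u).resolve_right fun h =>
          h.elim (hno u hu) (hK' a haK u hu))⟩
      have := card_le_card hsub
      rw [hKc, F.four] at this
      omega
    obtain ⟨b, hbK, hb⟩ := hne
    have hclass : ∀ u, F.W a u = 4 → u ∈ K := by
      intro u hu
      obtain ⟨L, hL, huniq⟩ := F.exists_unique_pentad hb
      have hKL : K = L := huniq K ⟨⟨hKc, hK'⟩, haK, hbK⟩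
      have hub : F.W u b = 1 := by rw [← F.eq_of_four hu]; exact hb
      obtain ⟨L', hL', huniq'⟩ := F.exists_unique_pentad hub
      by_contra hun
      have hins : ∀ v ∈ insert u K, ∀ w ∈ insert u K, F.W v w ≠ -2 := by
        intro v hv w hw
        have e : ∀ v ∈ insert u K, ∃ v' ∈ K, F.W v = F.W v' := fun v hv => by
          rcases mem_insert.1 hv with rfl | hv
          · exact ⟨a, haK, (F.eq_of_four hu).symm⟩
          · exact ⟨v, hv, rfl⟩
        obtain ⟨v', hv', ev⟩ := e v hv
        obtain ⟨w', hw', ew⟩ := e w hw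
        rw [ev, F.symm, ew]
        exact hK' w' hw' v' hv'
      obtain ⟨c, hcK, hca, hcb⟩ : ∃ c ∈ K, c ≠ a ∧ c ≠ b := by
        have : ((K.erase a).erase b).Nonempty := by
          rw [← card_pos]
          have := pred_card_le_card_erase (a := b) (s := K.erase a)
          have := pred_card_le_card_erase (a := a) (s := K)
          omega
        obtain ⟨c, hc⟩ := this
        exact ⟨c, mem_of_mem_erase (mem_of_mem_erase hc),
          ne_of_mem_erase (mem_of_mem_erase hc), ne_of_mem_erase hc⟩
      have hK2 : insert u (K.erase c) = K := by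
        refine huniq _ ⟨⟨?_, fun v hv w hw => hins v ?_ w ?_⟩, ?_, ?_⟩ |>.trans hKL.symm
        · rw [card_insert_of_notMem (fun h => hun (mem_of_mem_erase h)), card_erase_of_mem hcK, hKc]
        · exact insert_subset_insert _ (erase_subset _ _) hv
        · exact insert_subset_insert _ (erase_subset _ _) hw
        · exact mem_insert_of_mem (mem_erase.2 ⟨hca.symm, haK⟩)
        · exact mem_insert_of_mem (mem_erase.2 ⟨hcb.symm, hbK⟩)
      exact hun (hK2 ▸ mem_insert_self _ _)
    have hsplit : (univ.filter fun u => F.W a u = 1).filter (fun u => u ∈ K) =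
        K \ univ.filter fun u => F.W a u = 4 := by
      ext u
      simp only [mem_filter, mem_univ, true_and, mem_sdiff]
      refine ⟨fun ⟨h, hu⟩ => ⟨hu, by omega⟩, fun ⟨hu, h⟩ => ⟨?_, hu⟩⟩
      exact ((F.vals a u).resolve_left h).resolve_right (hK' a haK u hu)
    rw [hsplit, card_sdiff_of_subset (fun u hu => hclass u (mem_filter.1 hu).2), hKc, F.four]
  have h2 : ∀ u ∈ univ.filter (fun u => F.W a u = 1), (T.filter fun K => u ∈ K).card = 1 := by
    intro u hu
    obtain ⟨L, hL, huniq⟩ := F.exists_unique_pentad (mem_filter.1 hu).2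
    rw [card_eq_one]
    refine ⟨L, ?_⟩
    ext K
    simp only [hT, mem_filter, mem_univ, true_and, mem_singleton]
    exact ⟨fun h => huniq K ⟨h.1.1, h.1.2, h.2⟩, fun h => h ▸ ⟨⟨hL.1, hL.2.1⟩, hL.2.2⟩⟩
  have h3 := sum_card_bipartiteAbove_eq_sum_card_bipartiteBelow
    (fun (K : Finset Y) (u : Y) => u ∈ K) (s := T) (t := univ.filter fun u => F.W a u = 1)
  simp only [bipartiteAbove, bipartiteBelow] at h3
  rw [sum_congr rfl h1, sum_congr rfl h2, sum_const, sum_const, F.card_deg] at h3
  simp only [smul_eq_mul] at h3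
  omega

open Classical in
theorem card_all_pentads : ((univ : Finset (Finset Y)).filter F.IsPentad).card = 6 := by
  have h := sum_card_bipartiteAbove_eq_sum_card_bipartiteBelow
    (fun (K : Finset Y) (u : Y) => u ∈ K) (s := (univ : Finset (Finset Y)).filter F.IsPentad)
    (t := (univ : Finset Y))
  simp only [bipartiteAbove, bipartiteBelow, filter_filter] at h
  rw [sum_congr rfl fun K hK => show (univ.filter fun u => u ∈ K).card = 20 by
      rw [filter_univ_mem]; exact ((mem_filter.1 hK).2).1,
    sum_congr rfl fun u _ => F.card_pentads u, sum_const, sum_const, card_univ, F.card] at h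
  simp only [smul_eq_mul] at h
  omega

end Frame

end CfsgLib.HSGraph
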