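import Cfsg.Agent.HSGraph.Basic
import Cfsg.Agent.HSGraph.Frame
import Cfsg.Agent.DesignUnique.Large

/-! The graphs with parameters (77, 16, 0, 4) are block graphs of S(3, 6, 22). -/

set_option autoImplicit false
set_option linter.unusedSectionVars false
set_option linter.unusedSimpArgs false

open Finset Cfsg

namespace CfsgLib.HSGraph.Srg77

variable {V : Type*} [Fintype V] [DecidableEq V] {G : SimpleGraph V} [DecidableRel G.Adj]
  (hG : G.IsSRGWith 77 16 0 4) (x : V)

include hG in
theorem triangle_free {a b c : V} (h1 : G.Adj a b) (h2 : G.Adj b c) (h3 : G.Adj a c) : False := by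
  have := card_common_adj hG h1
  rw [card_eq_zero] at this
  have hc : c ∈ (univ.filter fun w => G.Adj a w ∧ G.Adj b w) := by simp [h2, h3]
  simp [this] at hc

/-- The vertices other than `x` not adjacent to it. -/
abbrev Far (G : SimpleGraph V) (x : V) : Type _ := {y // x ≠ y ∧ ¬ G.Adj x y}

theorem card_far (p : V → Prop) [DecidablePred p] :
    (univ.filter fun z : Far G x => p z.1).card =
      (univ.filter fun z => (x ≠ z ∧ ¬ G.Adj x z) ∧ p z).card := by
  rw [← Finset.card_map (Function.Embedding.subtype _)]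
  congr 1
  ext z
  simp only [Finset.mem_map, mem_filter, mem_univ, true_and, Function.Embedding.subtype,
    Function.Embedding.coeFn_mk]
  exact ⟨fun ⟨w, hw, e⟩ => e ▸ ⟨w.2, hw⟩, fun ⟨h, hp⟩ => ⟨⟨z, h⟩, hp, rfl⟩⟩

include hG in
theorem natCard_far : Fintype.card (Far G x) = 60 := by
  have h4 := card_filter_add_card_filter_not (s := (univ : Finset V)) (fun w => G.Adj x w)
  rw [card_adj hG, card_univ, hG.card] at h4
  rw [Fintype.card_subtype, show (univ.filter fun w => x ≠ w ∧ ¬ G.Adj x w) =
    (univ.filter fun w => ¬ G.Adj x w).erase x by ext w; simp [ne_comm],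
    card_erase_of_mem (by simp)]
  omega

include hG in
theorem card_blk4 (y : Far G x) : (blk (G := G) x y.1).card = 4 := by
  rw [← Finset.card_map (Function.Embedding.subtype _), map_blk x y.1,
    card_common_not_adj hG y.2.1 y.2.2]

include hG in
theorem far_through (a : {a // G.Adj x a}) :
    (univ.filter fun z : Far G x => G.Adj a.1 z.1).card = 15 := by
  rw [card_far x fun z => G.Adj a.1 z, show (univ.filter fun z => (x ≠ z ∧ ¬ G.Adj x z) ∧ G.Adj a.1 z) =
    (univ.filter fun z => G.Adj a.1 z).erase x by
      ext z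
      simp only [mem_filter, mem_univ, true_and, mem_erase]
      exact ⟨fun h => ⟨h.1.1.symm, h.2⟩, fun h => ⟨⟨h.1.symm, fun h' => triangle_free hG a.2 h.2 h'⟩, h.2⟩⟩,
    card_erase_of_mem (by simp [a.2.symm]), card_adj hG]

include hG in
theorem far_through_two (a b : {a // G.Adj x a}) :
    (univ.filter fun z : Far G x => G.Adj a.1 z.1 ∧ G.Adj b.1 z.1).card = if a = b then 15 else 3 := by
  split_ifs with h
  · subst h; simpa using far_through hG x a
  · rw [card_far x fun z => G.Adj a.1 z ∧ G.Adj b.1 z,
      show (univ.filter fun z => (x ≠ z ∧ ¬ G.Adj x z) ∧ G.Adj a.1 z ∧ G.Adj b.1 z) =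
      (univ.filter fun z => G.Adj a.1 z ∧ G.Adj b.1 z).erase x by
        ext z
        simp only [mem_filter, mem_univ, true_and, mem_erase]
        exact ⟨fun h => ⟨h.1.1.symm, h.2⟩,
          fun h => ⟨⟨h.1.symm, fun h' => triangle_free hG a.2 h.2.1 h'⟩, h.2⟩⟩,
      card_erase_of_mem (by simp [a.2.symm, b.2.symm]),
      card_common_not_adj hG (fun e => h (Subtype.ext e)) (fun e => triangle_free hG a.2 e b.2)]

include hG in
theorem far_point_far (a : {a // G.Adj x a}) (w : Far G x) :
    (univ.filter fun z : Far G x => G.Adj a.1 z.1 ∧ G.Adj w.1 z.1).card =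
      if G.Adj a.1 w.1 then 0 else 4 := by
  split_ifs with h
  · rw [card_eq_zero, filter_eq_empty_iff]
    rintro z - ⟨h1, h2⟩
    exact triangle_free hG h h2 h1
  · have hne : a.1 ≠ w.1 := fun e => w.2.2 (e ▸ a.2)
    rw [card_far x fun z => G.Adj a.1 z ∧ G.Adj w.1 z, ← card_common_not_adj hG hne h]
    congr 1
    ext z
    simp only [mem_filter, mem_univ, true_and, and_iff_right_iff_imp]
    rintro ⟨h1, h2⟩
    exact ⟨fun e => w.2.2 (e ▸ h2.symm), fun h' => triangle_free hG a.2 h1 h'⟩

include hG in
theorem far_deg (w : Far G x) : (univ.filter fun z : Far G x => G.Adj w.1 z.1).card = 12 := by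
  have h := card_filter_add_card_filter_not (s := univ.filter fun z => G.Adj w.1 z) (fun z => G.Adj x z)
  rw [filter_filter, filter_filter, card_adj hG,
    show (univ.filter fun z => G.Adj w.1 z ∧ G.Adj x z).card = 4 by
      rw [← card_common_not_adj hG w.2.1 w.2.2]; congr 1; ext z; simp [and_comm]] at h
  rw [card_far x fun z => G.Adj w.1 z]
  rw [show (univ.filter fun z => (x ≠ z ∧ ¬ G.Adj x z) ∧ G.Adj w.1 z) =
    univ.filter fun z => G.Adj w.1 z ∧ ¬ G.Adj x z by
      ext z
      simp only [mem_filter, mem_univ, true_and]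
      exact ⟨fun h => ⟨h.2, h.1.2⟩, fun h => ⟨⟨fun e => w.2.2 (e ▸ h.1.symm), h.2⟩, h.1⟩⟩]
  omega

/-- Number of common neighbours inside the neighbourhood of `x`. -/
def meet (y z : Far G x) : ℕ := (blk (G := G) x y.1 ∩ blk x z.1).card

theorem meet_eq_sum (y z : Far G x) :
    (meet x y z : ℤ) = ∑ a ∈ blk (G := G) x y.1, if G.Adj a.1 z.1 then (1 : ℤ) else 0 := by
  rw [Finset.sum_boole, meet]
  congr 2
  ext a; simp [mem_blk]

include hG in
theorem sum_meet (y : Far G x) : ∑ z, (meet x y z : ℤ) = 60 := by
  simp only [meet_eq_sum]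
  rw [sum_comm, sum_congr rfl fun a _ => by rw [Finset.sum_boole, far_through hG x a], sum_const,
    card_blk4 hG]
  norm_num

include hG in
theorem sum_meet_meet (y w : Far G x) :
    ∑ z, (meet x y z : ℤ) * meet x w z = 48 + 12 * meet x y w := by
  simp only [meet_eq_sum (y := y), meet_eq_sum (y := w), sum_mul_sum]
  rw [sum_comm, sum_congr rfl fun a _ => sum_comm,
    sum_congr rfl fun a _ => sum_congr rfl fun b _ => show _ = 3 + if a = b then (12 : ℤ) else 0 by
      simp only [ite_mul, one_mul, zero_mul, ← ite_and, Finset.sum_boole, far_through_two hG x a b]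
      split_ifs <;> norm_num]
  simp only [sum_add_distrib, sum_const, card_blk4 hG, sum_ite_eq, ← sum_filter, mul_sum]
  have hmem : ∀ a, a ∈ blk (G := G) x w.1 ↔ G.Adj a.1 w.1 := fun a => mem_blk x
  simp only [← hmem]
  norm_num
  ring

include hG in
theorem sum_meet_adj (y w : Far G x) :
    ∑ z, (meet x y z : ℤ) * (if G.Adj w.1 z.1 then 1 else 0) = 4 * (4 - meet x y w) := by
  simp only [meet_eq_sum (y := y), sum_mul]
  rw [sum_comm, sum_congr rfl fun a _ => show _ = 4 - 4 * (if G.Adj a.1 w.1 then (1 : ℤ) else 0) by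
      simp only [ite_mul, one_mul, zero_mul, ← ite_and, Finset.sum_boole, far_point_far hG x a w]
      split_ifs <;> norm_num]
  rw [sum_sub_distrib, ← mul_sum, sum_const, card_blk4 hG]
  norm_num
  ring

include hG in
theorem sum_adj_adj (y w : Far G x) :
    ∑ z : Far G x, (if G.Adj y.1 z.1 then (1 : ℤ) else 0) * (if G.Adj w.1 z.1 then 1 else 0) =
      if y = w then (12 : ℤ) else if G.Adj y.1 w.1 then 0 else 4 - (meet x y w : ℤ) := by
  simp only [ite_mul, one_mul, zero_mul, ← ite_and, Finset.sum_boole]
  split_ifs with h h'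
  · subst h; simpa using congrArg Nat.cast (far_deg hG x y)
  · rw [Nat.cast_eq_zero, card_eq_zero, filter_eq_empty_iff]
    rintro z - ⟨h1, h2⟩
    exact triangle_free hG h' h2 h1
  · have hc := card_common_not_adj hG (fun e => h (Subtype.ext e)) h'
    have hs := card_filter_add_card_filter_not (s := univ.filter fun z => G.Adj y.1 z ∧ G.Adj w.1 z)
      (fun z => G.Adj x z)
    rw [filter_filter, filter_filter, hc] at hs
    have hm : meet x y w = (univ.filter fun z => (G.Adj y.1 z ∧ G.Adj w.1 z) ∧ G.Adj x z).card := by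
      rw [meet, ← Finset.card_map (Function.Embedding.subtype _), Finset.map_inter, map_blk, map_blk,
        ← filter_and]
      congr 1
      ext z
      simp only [mem_filter, mem_univ, true_and]
      exact ⟨fun h => ⟨⟨h.1.2, h.2.2⟩, h.1.1⟩, fun h => ⟨⟨h.2, h.1.1⟩, h.2, h.1.2⟩⟩
    rw [card_far x fun z => G.Adj y.1 z ∧ G.Adj w.1 z,
      show (univ.filter fun z => (x ≠ z ∧ ¬ G.Adj x z) ∧ G.Adj y.1 z ∧ G.Adj w.1 z) =
      univ.filter fun z => (G.Adj y.1 z ∧ G.Adj w.1 z) ∧ ¬ G.Adj x z by
        ext z
        simp only [mem_filter, mem_univ, true_and]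
        exact ⟨fun h => ⟨h.2, h.1.2⟩, fun h => ⟨⟨fun e => y.2.2 (e ▸ h.1.1.symm), h.2⟩, h.1⟩⟩]
    omega

/-- The entries of the Gram matrix. -/
def gram (y z : Far G x) : ℤ :=
  4 - 3 * meet x y z - 6 * (if G.Adj y.1 z.1 then 1 else 0) + 12 * (if y = z then 1 else 0)

include hG in
theorem meet_self (y : Far G x) : meet x y y = 4 := by
  rw [meet, inter_self, card_blk4 hG]

include hG in
theorem meet_adj {y z : Far G x} (h : G.Adj y.1 z.1) : meet x y z = 0 := by
  rw [meet, card_eq_zero, ← disjoint_iff_inter_eq_empty, disjoint_left]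
  exact fun a ha hb => triangle_free hG ((mem_blk x).1 ha) h ((mem_blk x).1 hb)

theorem gram_symm (y z : Far G x) : gram x y z = gram x z y := by
  rw [gram, gram, meet, meet, inter_comm]
  congr 1
  · simp [G.adj_comm]
  · simp [eq_comm]

include hG in
theorem sum_gram (y : Far G x) : ∑ z, gram x y z = 0 := by
  simp only [gram, sum_add_distrib, sum_sub_distrib, ← mul_sum, sum_meet hG, Finset.sum_boole,
    far_deg hG, sum_const, card_univ, natCard_far hG]
  simp [filter_eq]

include hG in
theorem prod_gram (y w : Far G x) : ∑ z, gram x y z * gram x w z = 48 * gram x y w := by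
  have e : ∀ z, gram x y z * gram x w z = 16 - 12 * (meet x y z : ℤ) - 12 * meet x w z -
      24 * (if G.Adj y.1 z.1 then 1 else 0) - 24 * (if G.Adj w.1 z.1 then 1 else 0) +
      48 * (if y = z then 1 else 0) + 48 * (if w = z then 1 else 0) +
      9 * ((meet x y z : ℤ) * meet x w z) +
      18 * ((meet x y z : ℤ) * (if G.Adj w.1 z.1 then 1 else 0)) +
      18 * ((meet x w z : ℤ) * (if G.Adj y.1 z.1 then 1 else 0)) -
      36 * (if w = z then (meet x y z : ℤ) else 0) - 36 * (if y = z then (meet x w z : ℤ) else 0) +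
      36 * ((if G.Adj y.1 z.1 then (1 : ℤ) else 0) * (if G.Adj w.1 z.1 then 1 else 0)) -
      72 * (if w = z then (if G.Adj y.1 z.1 then (1 : ℤ) else 0) else 0) -
      72 * (if y = z then (if G.Adj w.1 z.1 then (1 : ℤ) else 0) else 0) +
      144 * (if y = z then (if w = z then 1 else 0) else 0) := fun z => by
    simp only [gram]
    by_cases h : y = z <;> by_cases h' : w = z <;> by_cases a : G.Adj y.1 z.1 <;>
      by_cases a' : G.Adj w.1 z.1 <;> simp_all <;> ring
  simp only [e, sum_add_distrib, sum_sub_distrib, ← mul_sum, sum_meet hG, sum_meet_meet hG,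
    sum_meet_adj hG, sum_adj_adj hG, sum_ite_eq, mem_univ, if_true, sum_const, card_univ,
    natCard_far hG, Finset.sum_boole, far_deg hG]
  have hsw : meet x w y = meet x y w := by rw [meet, meet, inter_comm]
  simp only [hsw, G.adj_comm w.1 y.1, gram]
  by_cases h : y = w
  · subst h
    simp [meet_self hG]
  · by_cases h' : G.Adj y.1 w.1
    · simp [h, Ne.symm h, h', meet_adj hG x h']
    · simp [h, Ne.symm h, h']
      ring

include hG in
theorem gram_diag (y : Far G x) : gram x y y = 4 := by simp [gram, meet_self hG]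

include hG in
theorem gram_vals (y z : Far G x) : gram x y z = 4 ∨ gram x y z = 1 ∨ gram x y z = -2 := by
  by_cases h : y = z
  · subst h; exact Or.inl (gram_diag hG x y)
  by_cases h' : G.Adj y.1 z.1
  · exact Or.inr (Or.inr (by simp [gram, h, h', meet_adj hG x h']))
  have hnn : 0 ≤ ∑ u, (gram x y u + gram x z u) ^ 2 := sum_nonneg fun u _ => sq_nonneg _
  simp only [sq, add_mul, mul_add, sum_add_distrib, prod_gram hG, gram_diag hG, gram_symm x z y] at hnn
  have hg : gram x y z = 4 - 3 * (meet x y z : ℤ) := by simp [gram, h, h']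
  omega

include hG in
theorem gram_four (y : Far G x) : (univ.filter fun u => gram x y u = 4).card = 4 := by
  have hsplit : ∀ g : ℤ → ℤ, ∑ u, g (gram x y u) =
      (univ.filter fun u => gram x y u = 4).card * g 4 +
      (univ.filter fun u => gram x y u = 1).card * g 1 +
      (univ.filter fun u => gram x y u = -2).card * g (-2) := by
    intro g
    simp only [card_filter, Nat.cast_sum, sum_mul, ← sum_add_distrib]
    refine sum_congr rfl fun u _ => ?_
    rcases gram_vals hG x y u with h | h | h <;> simp [h]
  have e0 := hsplit fun _ => 1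
  have e1 := hsplit fun t => t
  have e2 := hsplit fun t => t * t
  simp only [sum_gram hG, prod_gram hG, gram_diag hG, sum_const, card_univ, natCard_far hG,
    nsmul_eq_mul] at e0 e1 e2
  norm_num at e0 e1 e2
  omega

/-- The frame on the vertices far from `x`. -/
def frame : Frame (Far G x) where
  W := gram x
  symm := gram_symm x
  diag := gram_diag hG x
  vals := gram_vals hG x
  sum := sum_gram hG x
  prod := prod_gram hG x
  four := gram_four hG x
  card := natCard_far hG x

/-- A coclique of twenty-one vertices. -/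
def IsCoclique (G : SimpleGraph V) (C : Finset V) : Prop :=
  C.card = 21 ∧ ∀ u ∈ C, ∀ v ∈ C, ¬ G.Adj u v

include hG in
theorem outside_six {C : Finset V} (hC : IsCoclique G C) {v : V} (hv : v ∉ C) :
    (C.filter fun c => G.Adj c v).card = 6 := by
  have hd : ∀ v, ((C.filter fun c => G.Adj c v).card : ℤ) = ∑ c ∈ C, if G.Adj c v then (1 : ℤ) else 0 :=
    fun v => (Finset.sum_boole _ _).symm
  have hin : ∀ v ∈ C, ((C.filter fun c => G.Adj c v).card : ℤ) = 0 := fun v hv => by
    rw [Nat.cast_eq_zero, card_eq_zero, filter_eq_empty_iff]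
    exact fun c hc => hC.2 c hc v hv
  have e1 : ∑ v, ((C.filter fun c => G.Adj c v).card : ℤ) = 336 := by
    simp only [hd]
    rw [sum_comm, sum_congr rfl fun c _ => by rw [Finset.sum_boole, card_adj hG c], sum_const, hC.1]
    norm_num
  have e2 : ∑ v, ((C.filter fun c => G.Adj c v).card : ℤ) ^ 2 = 2016 := by
    simp only [hd, sq, sum_mul_sum]
    rw [sum_comm, sum_congr rfl fun c _ => sum_comm,
      sum_congr rfl fun c hc => sum_congr rfl fun c' hc' => show _ = 4 + if c = c' then (12 : ℤ) else 0 by
        simp only [ite_mul, one_mul, zero_mul, ← ite_and, Finset.sum_boole]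
        by_cases h : c = c'
        · subst h; simp [card_adj hG c]
        · rw [card_common_not_adj hG h (hC.2 c hc c' hc')]; simp [h]]
    simp [sum_add_distrib, hC.1]
  have hz : ∑ v ∈ univ \ C, (((C.filter fun c => G.Adj c v).card : ℤ) - 6) ^ 2 = 0 := by
    have h1 := sum_sdiff (s₁ := C) (s₂ := univ) (f := fun v => ((C.filter fun c => G.Adj c v).card : ℤ))
      (subset_univ C)
    have h2 := sum_sdiff (s₁ := C) (s₂ := univ)
      (f := fun v => ((C.filter fun c => G.Adj c v).card : ℤ) ^ 2) (subset_univ C)
    rw [sum_eq_zero hin, e1, add_zero] at h1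
    rw [sum_eq_zero (s := C) (fun v hv => by rw [hin v hv]; norm_num), e2, add_zero] at h2
    have hc : (univ \ C).card = 56 := by rw [card_univ_diff, hG.card, hC.1]
    simp only [sub_sq, sum_add_distrib, sum_sub_distrib, sum_const, hc, ← sum_mul, ← mul_sum, h1, h2]
    norm_num
  have := pow_eq_zero_iff (n := 2) (by norm_num) |>.1
    ((sum_eq_zero_iff_of_nonneg fun w _ => sq_nonneg _).1 hz v (by simp [hv]))
  omega

include hG in
theorem coclique_gram {C : Finset V} (hC : IsCoclique G C) (hx : x ∈ C) :
    (frame hG x).IsPentad (univ.filter fun y : Far G x => y.1 ∈ C) := by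
  have hmap : ((univ.filter fun y : Far G x => y.1 ∈ C).map (Function.Embedding.subtype _)) =
      C.erase x := by
    ext z
    simp only [Finset.mem_map, mem_filter, mem_univ, true_and, mem_erase, Function.Embedding.subtype,
      Function.Embedding.coeFn_mk]
    constructor
    · rintro ⟨w, hw, rfl⟩; exact ⟨w.2.1.symm, hw⟩
    · rintro ⟨hne, hz⟩; exact ⟨⟨z, hne.symm, hC.2 x hx z hz⟩, hz, rfl⟩
  set K := univ.filter fun y : Far G x => y.1 ∈ C with hK
  have hKc : K.card = 20 := by
    rw [← Finset.card_map (Function.Embedding.subtype _), hmap, card_erase_of_mem hx, hC.1]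
  refine ⟨hKc, fun y hy => ?_⟩
  have hyC : y.1 ∈ C := (mem_filter.1 hy).2
  have hsum : ∑ z ∈ K, (meet x y z : ℤ) = 20 := by
    simp only [meet_eq_sum]
    rw [sum_comm, sum_congr rfl fun a _ => show _ = (5 : ℤ) by
      rw [Finset.sum_boole, ← Finset.card_map (Function.Embedding.subtype _),
        show (K.filter fun z => G.Adj a.1 z.1).map (Function.Embedding.subtype _) =
          (K.map (Function.Embedding.subtype _)).filter (fun z => G.Adj a.1 z) by
            rw [filter_map]; rfl, hmap,
        filter_erase, card_erase_of_mem (by simp [hx, a.2.symm]),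
        show (C.filter fun z => G.Adj a.1 z) = C.filter fun c => G.Adj c a.1 from
          filter_congr fun c _ => by rw [G.adj_comm],
        outside_six hG hC (fun h => hC.2 x hx a.1 h a.2)]
      norm_num, sum_const, card_blk4 hG]
    norm_num
  have hgs : ∑ z ∈ K, gram x y z = 32 := by
    rw [sum_congr rfl (g := fun z => 4 - 3 * (meet x y z : ℤ) + 12 * (if y = z then 1 else 0))
      fun z hz => by
        have h : ¬ G.Adj y.1 z.1 := hC.2 _ hyC _ (mem_filter.1 hz).2
        simp [gram, h]]
    simp only [sum_add_distrib, sum_sub_distrib, ← mul_sum, hsum, sum_const, hKc, sum_ite_eq, hy,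
      if_true]
    norm_num
  intro z hz hzval
  have hle : (K.filter fun u => gram x y u = 4).card ≤ 4 :=
    le_of_le_of_eq (card_le_card (filter_subset_filter _ (subset_univ K))) (gram_four hG x y)
  have hbound : ∀ u ∈ K, gram x y u ≤
      1 + (if gram x y u = 4 then 3 else 0) - if u = z then 3 else 0 := by
    intro u _
    by_cases h : u = z
    · subst h
      rw [show gram x y u = -2 from hzval]; norm_num
    · rcases gram_vals hG x y u with e | e | e <;> simp [e, h]
  have := sum_le_sum hbound
  rw [hgs, sum_sub_distrib, sum_add_distrib, ← sum_filter, sum_const, sum_const, hKc, sum_ite_eq'] at this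
  simp only [hz, if_true, smul_eq_mul, nsmul_eq_mul] at this
  push_cast at this
  omega

theorem pentad_coclique {K : Finset (Far G x)} (hK : (frame hG x).IsPentad K) :
    IsCoclique G (insert x (K.map (Function.Embedding.subtype _))) := by
  have hx : x ∉ K.map (Function.Embedding.subtype _) := by simp
  refine ⟨by rw [card_insert_of_notMem hx, card_map, hK.1], ?_⟩
  intro u hu v hv h
  simp only [mem_insert, Finset.mem_map, Function.Embedding.subtype, Function.Embedding.coeFn_mk] at hu hv
  rcases hu with rfl | ⟨y, hy, rfl⟩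
  · rcases hv with rfl | ⟨z, hz, rfl⟩
    · exact G.irrefl h
    · exact z.2.2 h
  · rcases hv with rfl | ⟨z, hz, rfl⟩
    · exact y.2.2 h.symm
    · refine hK.2 y hy z hz ?_
      show gram x y z = -2
      have hne : y ≠ z := fun e => G.irrefl (e ▸ h)
      have h' : G.Adj y.1 z.1 := h
      simp [gram, h', hne, meet_adj hG x h']

open Classical in
/-- The cocliques of twenty-one vertices: the points of the design. -/
abbrev Pts (G : SimpleGraph V) : Type _ := {C : Finset V // IsCoclique G C}

open Classical in
include hG in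
theorem card_through : (univ.filter fun C : Pts G => x ∈ C.1).card = 6 := by
  rw [← (frame hG x).card_all_pentads]
  refine card_bij (fun C _ => univ.filter fun y : Far G x => y.1 ∈ C.1)
    (fun C hC => mem_filter.2 ⟨mem_univ _, coclique_gram hG x C.2 (mem_filter.1 hC).2⟩) ?_ ?_
  · intro C hC D hD e
    refine Subtype.ext (Finset.ext fun z => ?_)
    by_cases hz : z = x
    · subst hz; exact iff_of_true (mem_filter.1 hC).2 (mem_filter.1 hD).2
    by_cases hz' : G.Adj x z
    · exact iff_of_false (fun h => C.2.2 x (mem_filter.1 hC).2 z h hz')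
        (fun h => D.2.2 x (mem_filter.1 hD).2 z h hz')
    · simpa using Finset.ext_iff.1 e ⟨z, Ne.symm hz, hz'⟩
  · intro K hK
    refine ⟨⟨_, pentad_coclique hG x (mem_filter.1 hK).2⟩, by simp, ?_⟩
    ext y
    simp [y.2.1, y.2.1.symm, y.2.2]

open Classical in
include hG in
theorem card_through_two (y : Far G x) :
    (univ.filter fun C : Pts G => x ∈ C.1 ∧ y.1 ∈ C.1).card = 2 := by
  rw [← (frame hG x).card_pentads y]
  refine card_bij (fun C _ => univ.filter fun z : Far G x => z.1 ∈ C.1)
    (fun C hC => mem_filter.2 ⟨mem_univ _, coclique_gram hG x C.2 (mem_filter.1 hC).2.1,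
      mem_filter.2 ⟨mem_univ _, (mem_filter.1 hC).2.2⟩⟩) ?_ ?_
  · intro C hC D hD e
    refine Subtype.ext (Finset.ext fun z => ?_)
    by_cases hz : z = x
    · subst hz; exact iff_of_true (mem_filter.1 hC).2.1 (mem_filter.1 hD).2.1
    by_cases hz' : G.Adj x z
    · exact iff_of_false (fun h => C.2.2 x (mem_filter.1 hC).2.1 z h hz')
        (fun h => D.2.2 x (mem_filter.1 hD).2.1 z h hz')
    · simpa using Finset.ext_iff.1 e ⟨z, Ne.symm hz, hz'⟩
  · intro K hK
    refine ⟨⟨_, pentad_coclique hG x (mem_filter.1 hK).2.1⟩, ?_, ?_⟩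
    · simp [y.2.1, y.2.1.symm, y.2.2, (mem_filter.1 hK).2.2]
    · ext z
      simp [z.2.1, z.2.1.symm, z.2.2]

open Classical in
/-- The block of a vertex: the cocliques through it. -/
noncomputable def block (G : SimpleGraph V) (v : V) : Finset (Pts G) :=
  univ.filter fun C => v ∈ C.1

open Classical in
include hG in
theorem card_pts : Fintype.card (Pts G) = 22 := by
  have h := sum_card_bipartiteAbove_eq_sum_card_bipartiteBelow
    (fun (C : Pts G) (v : V) => v ∈ C.1) (s := (univ : Finset (Pts G))) (t := (univ : Finset V))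
  simp only [bipartiteAbove, bipartiteBelow] at h
  rw [sum_congr rfl fun C _ => show (univ.filter fun v => v ∈ C.1).card = 21 by
      rw [filter_univ_mem]; exact C.2.1,
    sum_congr rfl fun v _ => card_through hG v, sum_const, sum_const, card_univ, card_univ,
    hG.card] at h
  simp only [smul_eq_mul] at h
  omega

open Classical in
include hG in
theorem block_inter {u v : V} (h : u ≠ v) :
    (block G u ∩ block G v).card = if G.Adj u v then 0 else 2 := by
  rw [block, block, ← filter_and]
  split_ifs with ha
  · rw [card_eq_zero, filter_eq_empty_iff]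
    exact fun C _ hC => C.2.2 u hC.1 v hC.2 ha
  · exact card_through_two hG u ⟨v, h, ha⟩

open Classical in
include hG in
theorem block_steiner : IsSteinerSystem 3 6 (Set.range (block G)) ∧ Function.Injective (block G) := by
  have hc : ∀ v, (block G v).card = 6 := fun v => card_through hG v
  have hsmall : ∀ u v, u ≠ v → (block G u ∩ block G v).card ≤ 2 := fun u v h => by
    rw [block_inter hG h]; split_ifs <;> omega
  have huniq : ∀ (s : Finset (Pts G)) (u v : V), s.card = 3 → s ⊆ block G u → s ⊆ block G v → u = v := by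
    intro s u v hs h1 h2
    by_contra hne
    have := card_le_card (subset_inter h1 h2)
    have := hsmall u v hne
    omega
  refine ⟨⟨?_, fun s hs => ?_⟩, fun u v e => ?_⟩
  · rintro _ ⟨v, rfl⟩; exact hc v
  · have hall : (univ : Finset V).biUnion (fun v => powersetCard 3 (block G v)) =
        powersetCard 3 (univ : Finset (Pts G)) := by
      refine eq_of_subset_of_card_le (fun t ht => ?_) ?_
      · simp only [mem_biUnion, mem_powersetCard] at ht ⊢
        obtain ⟨_, _, _, h⟩ := ht
        exact ⟨subset_univ _, h⟩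
      · rw [card_biUnion, card_powersetCard, card_univ, card_pts hG,
          sum_congr rfl fun v _ => by rw [card_powersetCard, hc], sum_const, card_univ, hG.card]
        · decide
        · intro u _ v _ hne
          rw [Function.onFun, disjoint_left]
          intro t hu hv
          rw [mem_powersetCard] at hu hv
          exact hne (huniq t u v hu.2 hu.1 hv.1)
    have hmem : s ∈ powersetCard 3 (univ : Finset (Pts G)) := mem_powersetCard.2 ⟨subset_univ _, hs⟩
    rw [← hall, mem_biUnion] at hmem
    obtain ⟨v, -, hv⟩ := hmem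
    refine ⟨_, ⟨⟨v, rfl⟩, (mem_powersetCard.1 hv).1⟩, ?_⟩
    rintro _ ⟨⟨u, rfl⟩, hu⟩
    rw [huniq s u v hs hu (mem_powersetCard.1 hv).1]
  · by_contra hne
    have := hsmall u v hne
    rw [e, inter_self, hc] at this
    omega

open Classical in
include hG in
theorem exists_iso_std : Nonempty (G ≃g blockGraph DesignUnique.std22) := by
  obtain ⟨hS, hinj⟩ := block_steiner hG
  obtain ⟨e, he⟩ := DesignUnique.exists_equiv22 (card_pts hG) hS
  let g : V → DesignUnique.std22 := fun v => ⟨(block G v).image e, he ▸ ⟨_, ⟨v, rfl⟩, rfl⟩⟩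
  have hg : Function.Bijective g := by
    constructor
    · intro u v h
      exact hinj (Finset.image_injective e.injective (congrArg Subtype.val h))
    · rintro ⟨s, hs⟩
      obtain ⟨_, ⟨v, rfl⟩, hv⟩ := (he ▸ hs : s ∈ (fun b => b.image e) '' Set.range (block G))
      exact ⟨v, Subtype.ext hv⟩
  refine ⟨⟨Equiv.ofBijective g hg, fun {u v} => ?_⟩⟩
  show (blockGraph DesignUnique.std22).Adj (g u) (g v) ↔ _
  by_cases h : u = v
  · subst h
    exact iff_of_false (SimpleGraph.irrefl _) G.irrefl
  rw [blockGraph, SimpleGraph.fromRel_adj, and_iff_right (fun e => h (hg.1 e))]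
  show Disjoint ((block G u).image e) ((block G v).image e) ∨
    Disjoint ((block G v).image e) ((block G u).image e) ↔ _
  rw [disjoint_comm (a := (block G v).image e), or_self, Finset.disjoint_image e.injective,
    disjoint_iff_inter_eq_empty, ← card_eq_zero, block_inter hG h]
  split_ifs with ha <;> simp [ha]

end CfsgLib.HSGraph.Srg77
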